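import Cfsg.Agent.Mult.Basic
import Cfsg.Agent.Class.SL2Cover
import Cfsg.Agent.Class.SL2Sylow
import Cfsg.Agent.S0243

/-!
Lifts of the subgroups `E₁₆` of `L₃(4)` to central extensions by elementary abelian 2-groups.
-/

set_option autoImplicit false

namespace Cfsg.Agent.Mult.L34

open Cfsg Matrix
open scoped MatrixGroups commutatorElement

variable {F : Type*} [Field F]

/-- Unitriangular matrices. -/
def u (a b c : F) : SL(3, F) := ⟨!![1, a, b; 0, 1, c; 0, 0, 1], by simp [det_fin_three]⟩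

theorem u_mul (a b c a' b' c' : F) :
    u a b c * u a' b' c' = u (a + a') (b + b' + a * c') (c + c') := by
  ext i j; rw [Matrix.SpecialLinearGroup.coe_mul]
  fin_cases i <;> fin_cases j <;> simp [u, Matrix.mul_apply, Fin.sum_univ_three] <;> ring

theorem u_zero : u (0 : F) 0 0 = 1 := by
  ext i j; fin_cases i <;> fin_cases j <;> simp [u]

theorem u_inv (a b c : F) : (u a b c)⁻¹ = u (-a) (a * c - b) (-c) := by
  rw [inv_eq_iff_mul_eq_one, u_mul, ← u_zero]; congr 1 <;> ring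

/-- The block embedding of `SL₂`. -/
def ι0 (M : SL(2, F)) : SL(3, F) := ⟨!![1, 0, 0; 0, M 0 0, M 0 1; 0, M 1 0, M 1 1], by
  have := M.det_coe; rw [det_fin_two] at this; simpa [det_fin_three] using this⟩

/-- The block embedding of `SL₂`. -/
def ι : SL(2, F) →* SL(3, F) := MonoidHom.mk' ι0 fun M N => by
  ext i j; rw [Matrix.SpecialLinearGroup.coe_mul]
  fin_cases i <;> fin_cases j <;>
    simp [ι0, Matrix.mul_apply, Fin.sum_univ_three, Fin.sum_univ_two]

theorem coe_ι (M : SL(2, F)) : ((ι M : SL(3, F)) : Matrix (Fin 3) (Fin 3) F) =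
    !![1, 0, 0; 0, M 0 0, M 0 1; 0, M 1 0, M 1 1] := rfl

theorem u_ι (a b : F) (M : SL(2, F)) :
    u a b 0 * ι M = ι M * u (a * M 0 0 + b * M 1 0) (a * M 0 1 + b * M 1 1) 0 := by
  ext i j; simp only [Matrix.SpecialLinearGroup.coe_mul]
  fin_cases i <;> fin_cases j <;> simp [u, coe_ι, Matrix.mul_apply, Fin.sum_univ_three]

/-- The first elementary abelian subgroup. -/
def E (F : Type*) [Field F] : Subgroup SL(3, F) where
  carrier := {g | ∃ a b, g = u a b 0}
  one_mem' := ⟨0, 0, u_zero.symm⟩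
  mul_mem' := by rintro _ _ ⟨a, b, rfl⟩ ⟨a', b', rfl⟩; exact ⟨_, _, by rw [u_mul, add_zero]⟩
  inv_mem' := by rintro _ ⟨a, b, rfl⟩; exact ⟨_, _, by rw [u_inv, neg_zero]⟩

/-- The unitriangular group. -/
def U (F : Type*) [Field F] : Subgroup SL(3, F) where
  carrier := {g | ∃ a b c, g = u a b c}
  one_mem' := ⟨0, 0, 0, u_zero.symm⟩
  mul_mem' := by rintro _ _ ⟨a, b, c, rfl⟩ ⟨a', b', c', rfl⟩; exact ⟨_, _, _, u_mul ..⟩
  inv_mem' := by rintro _ ⟨a, b, c, rfl⟩; exact ⟨_, _, _, u_inv ..⟩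

/-- The graph automorphism preserving the unitriangular group. -/
def τ0 : SL(3, F) →* SL(3, F) where
  toFun g := ⟨((g⁻¹ : SL(3, F)) : Matrix (Fin 3) (Fin 3) F)ᵀ.submatrix Fin.revPerm Fin.revPerm, by
    rw [det_submatrix_equiv_self, det_transpose, Matrix.SpecialLinearGroup.det_coe]⟩
  map_one' := by ext i j; simp [one_apply, eq_comm]
  map_mul' g h := Subtype.ext (by
    simp only [_root_.mul_inv_rev, Matrix.SpecialLinearGroup.coe_mul, transpose_mul]
    exact (submatrix_mul_equiv _ _ _ _ _).symm)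

theorem τ0_τ0 (g : SL(3, F)) : τ0 (τ0 g) = g := by
  have h : (τ0 g)⁻¹ = τ0 g⁻¹ := (map_inv _ _).symm
  ext i j
  change ((τ0 g)⁻¹ : SL(3, F)).1 _ _ = _
  rw [h]
  change ((g⁻¹)⁻¹ : SL(3, F)).1 _ _ = _
  simp

/-- The graph automorphism. -/
def τ : SL(3, F) ≃* SL(3, F) :=
  { τ0 with invFun := τ0, left_inv := τ0_τ0, right_inv := τ0_τ0 }

theorem τ_u (a b c : F) : τ (u a b c) = u (-c) (a * c - b) (-a) := by
  ext i j
  change ((u a b c)⁻¹ : SL(3, F)).1 _ _ = _
  rw [u_inv]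
  fin_cases i <;> fin_cases j <;> simp [u, Fin.rev]

variable {L : Type*} [Group L]

/-- `ρ` is the quotient map modulo the centre. -/
def Pr (ρ : SL(3, F) →* L) : Prop :=
  Function.Surjective ρ ∧ ∀ g, ρ g = 1 ↔ g ∈ Subgroup.center SL(3, F)

variable {ρ : SL(3, F) →* L}

theorem Pr.comp (h : Pr ρ) (e : SL(3, F) ≃* SL(3, F)) : Pr (ρ.comp e.toMonoidHom) :=
  ⟨h.1.comp e.surjective, fun g => (h.2 _).trans (by
    simp only [Subgroup.mem_center_iff]
    refine ⟨fun H x => e.injective (by simpa using H (e x)), fun H x => ?_⟩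
    obtain ⟨x, rfl⟩ := e.surjective x
    simpa using congrArg e (H x))⟩

theorem Pr.eq (h : Pr ρ) {g g' : SL(3, F)} (e : ρ g = ρ g') :
    ∃ r : F, (g : Matrix (Fin 3) (Fin 3) F) = r • (g' : Matrix (Fin 3) (Fin 3) F) := by
  obtain ⟨r, -, hr⟩ := Matrix.SpecialLinearGroup.mem_center_iff.1
    ((h.2 (g * g'⁻¹)).1 (by rw [map_mul, map_inv, e, mul_inv_cancel]))
  refine ⟨r, ?_⟩
  have : g = g * g'⁻¹ * g' := by group
  conv_lhs => rw [this, Matrix.SpecialLinearGroup.coe_mul, ← hr]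
  simp [scalar_apply, ← smul_eq_diagonal_mul]

theorem Pr.eq' (h : Pr ρ) {g g' : SL(3, F)} (e : ρ g = ρ g') (h1 : g 0 0 = 1) (h2 : g' 0 0 = 1) :
    g = g' := by
  obtain ⟨r, hr⟩ := h.eq e
  have := congrFun (congrFun hr 0) 0
  simp only [Matrix.smul_apply, smul_eq_mul] at this
  rw [h1, h2, mul_one] at this
  subst this
  exact Subtype.ext (by simpa using hr)

theorem Pr.u_inj (h : Pr ρ) {a b c a' b' c' : F} (e : ρ (u a b c) = ρ (u a' b' c')) :
    a = a' ∧ b = b' ∧ c = c' := by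
  have := h.eq' e rfl rfl
  exact ⟨congrArg (fun g : SL(3, F) => g 0 1) this, congrArg (fun g : SL(3, F) => g 0 2) this,
    congrArg (fun g : SL(3, F) => g 1 2) this⟩

theorem Pr.ι_inj (h : Pr ρ) : Function.Injective (ρ.comp ι) := fun M N e => by
  have := h.eq' (g := ι M) (g' := ι N) e rfl rfl
  ext i j
  fin_cases i <;> fin_cases j
  exacts [congrArg (fun g : SL(3, F) => g 1 1) this, congrArg (fun g : SL(3, F) => g 1 2) this,
    congrArg (fun g : SL(3, F) => g 2 1) this, congrArg (fun g : SL(3, F) => g 2 2) this]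

theorem Pr.disj (h : Pr ρ) : (ρ.comp ι).range ⊓ (E F).map ρ = ⊥ := by
  rw [eq_bot_iff]
  rintro _ ⟨⟨M, rfl⟩, _, ⟨a, b, rfl⟩, e⟩
  have := h.eq' (g' := ι M) e rfl rfl
  have ha : a = 0 := congrArg (fun g : SL(3, F) => g 0 1) this
  have hb : b = 0 := congrArg (fun g : SL(3, F) => g 0 2) this
  rw [← e, ha, hb, u_zero, map_one]
  exact one_mem _

theorem Pr.norm [Fintype F] (hF : Fintype.card F = 4) (h : Pr ρ) :
    Subgroup.normalizer ((E F).map ρ : Set L) = (E F).map ρ ⊔ (ρ.comp ι).range := by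
  have : Finite L := Finite.of_surjective ρ h.1
  refine le_antisymm (fun l hl => ?_) (sup_le Subgroup.le_normalizer ?_)
  · obtain ⟨g, rfl⟩ := h.1 l
    have key : ∀ a b : F, ∃ r : F, g 0 0 + a * g 1 0 + b * g 2 0 = r * g 0 0 ∧ g 1 0 = r * g 1 0 ∧
        g 2 0 = r * g 2 0 := fun a b => by
      obtain ⟨_, ⟨a', b', rfl⟩, e⟩ := (Subgroup.mem_normalizer_iff''.1 hl (ρ (u a b 0))).1
        ⟨_, ⟨a, b, rfl⟩, rfl⟩
      obtain ⟨r, hr⟩ := h.eq (g := u a b 0 * g) (g' := g * u a' b' 0) (by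
        rw [map_mul, map_mul, e]; group)
      have H := fun i => congrFun (congrFun hr i) 0
      simp only [Matrix.SpecialLinearGroup.coe_mul] at H
      refine ⟨r, ?_, ?_, ?_⟩
      · simpa [u, Matrix.mul_apply, Fin.sum_univ_three] using H 0
      · simpa [u, Matrix.mul_apply, Fin.sum_univ_three] using H 1
      · simpa [u, Matrix.mul_apply, Fin.sum_univ_three] using H 2
    have h1 : g 1 0 = 0 := by
      by_contra h0
      obtain ⟨r, e1, e2, -⟩ := key 1 0
      obtain rfl : r = 1 := (mul_eq_right₀ h0).1 e2.symm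
      exact h0 (by linear_combination e1)
    have h2 : g 2 0 = 0 := by
      by_contra h0
      obtain ⟨r, e1, -, e2⟩ := key 0 1
      obtain rfl : r = 1 := (mul_eq_right₀ h0).1 e2.symm
      exact h0 (by linear_combination e1)
    have hd := g.det_coe
    rw [det_fin_three, h1, h2] at hd
    have h0 : g 0 0 ≠ 0 := fun h0 => by rw [h0] at hd; simp at hd
    have h3 : g 0 0 ^ 3 = 1 := by simpa [hF] using FiniteField.pow_card_sub_one_eq_one _ h0
    let z : SL(3, F) := ⟨scalar _ (g 0 0), by simpa [scalar_apply] using h3⟩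
    have hz : ρ z = 1 := (h.2 z).2 (Matrix.SpecialLinearGroup.mem_center_iff.2 ⟨g 0 0, by simpa using h3, rfl⟩)
    let M : SL(2, F) := ⟨!![g 1 1 / g 0 0, g 1 2 / g 0 0; g 2 1 / g 0 0, g 2 2 / g 0 0], by
      rw [det_fin_two_of]; field_simp; linear_combination g 0 0 ^ 2 * hd -
        (g 1 1 * g 2 2 - g 1 2 * g 2 1) * h3⟩
    have : g = z * ι M * u (g 0 1 / g 0 0) (g 0 2 / g 0 0) 0 := by
      ext i j
      simp only [Matrix.SpecialLinearGroup.coe_mul, coe_ι]
      fin_cases i <;> fin_cases j <;>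
        simp [z, M, u, Matrix.mul_apply, Fin.sum_univ_three, h1, h2, diagonal_apply] <;> field_simp
    rw [this, map_mul, map_mul, hz, one_mul]
    exact mul_mem (Subgroup.mem_sup_right ⟨M, rfl⟩) (Subgroup.mem_sup_left ⟨_, ⟨_, _, rfl⟩, rfl⟩)
  · rintro _ ⟨M, rfl⟩
    rw [← inv_mem_iff]
    refine Subgroup.mem_normalizer_fintype ?_
    rintro _ ⟨_, ⟨a, b, rfl⟩, rfl⟩
    exact ⟨_, ⟨_, _, rfl⟩, Eq.symm (by
      rw [inv_inv, mul_assoc, MonoidHom.comp_apply, ← map_mul, u_ι, map_mul, inv_mul_cancel_left])⟩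

section Lift

variable [Fintype F] (hF : Fintype.card F = 4) {X : Type*} [Group X] {π : X →* L}
  (hs : Function.Surjective π) (hc : π.ker ≤ Subgroup.center X) (h2 : ∀ z ∈ π.ker, z * z = 1)
include hF

theorem two_eq : (2 : F) = 0 := by
  have := FiniteField.cast_card_eq_zero F
  rw [hF] at this
  exact pow_eq_zero_iff (n := 2) (by norm_num) |>.1 (by rw [← this]; norm_num)

theorem u_sq (a b c : F) : u a b c * u a b c = u 0 (a * c) 0 := by
  rw [u_mul]; congr 1 <;> linear_combination (exp := 1) two_eq hF * _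

include hs hc h2

theorem sq_eq {x y : X} {a b : F} (hx : π x = ρ (u a b 0)) (hy : π y = ρ (u 1 0 0))
    (h : ¬ (a = 0 ∧ b = 0)) : x * x = y * y := by
  obtain ⟨M, h0, h1⟩ : ∃ M : SL(2, F), M 0 0 = a ∧ M 0 1 = b := by
    by_cases ha : a = 0
    · exact ⟨⟨!![a, b; -b⁻¹, 0], by simp [det_fin_two_of, show b ≠ 0 from fun e => h ⟨ha, e⟩]⟩,
        rfl, rfl⟩
    · exact ⟨⟨!![a, b; 0, a⁻¹], by simp [det_fin_two_of, ha]⟩, rfl, rfl⟩
  obtain ⟨m, hm⟩ := hs (ρ (ι M))
  have e := u_ι 1 0 M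
  rw [one_mul, one_mul, zero_mul, zero_mul, add_zero, add_zero, h0, h1] at e
  have k : (m⁻¹ * y * m)⁻¹ * x ∈ π.ker := by
    rw [MonoidHom.mem_ker, map_mul, map_inv, inv_mul_eq_one, map_mul, map_mul, map_inv, hm, hy, hx,
      mul_assoc, ← map_mul, e, map_mul, inv_mul_cancel_left]
  have k' : y * y ∈ π.ker := by
    rw [MonoidHom.mem_ker, map_mul, hy, ← map_mul, u_sq hF, mul_zero, u_zero, map_one]
  obtain ⟨z, rfl⟩ : ∃ z, x = m⁻¹ * y * m * z := ⟨(m⁻¹ * y * m)⁻¹ * x, by group⟩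
  rw [inv_mul_cancel_left] at k
  have := Subgroup.mem_center_iff.1 (hc k)
  calc _ = m⁻¹ * (y * y * m) * (z * z) := by rw [mul_assoc _ z, ← mul_assoc z, ← this]; group
    _ = _ := by rw [h2 z k, ← Subgroup.mem_center_iff.1 (hc k')]; group

theorem sq_one {x : X} (hx : x ∈ ((E F).map ρ).comap π) : x * x = 1 := by
  obtain ⟨_, ⟨a, b, rfl⟩, hx⟩ := hx
  by_cases h : a = 0 ∧ b = 0
  · exact h2 x (by rw [MonoidHom.mem_ker, ← hx, h.1, h.2, u_zero, map_one])
  obtain ⟨w, w0, w1⟩ : ∃ w : F, w ≠ 0 ∧ 1 + w ≠ 0 := by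
    classical
    obtain ⟨w, -, hw⟩ := Finset.exists_mem_notMem_of_card_lt_card (s := {0, -1})
      (t := (Finset.univ : Finset F)) (Finset.card_le_two.trans_lt (by rw [Finset.card_univ, hF]; norm_num))
    simp only [Finset.mem_insert, Finset.mem_singleton, not_or] at hw
    exact ⟨w, hw.1, fun e => hw.2 (by linear_combination e)⟩
  obtain ⟨y, hy⟩ := hs (ρ (u 1 0 0))
  obtain ⟨p, hp⟩ := hs (ρ (u 0 1 0))
  obtain ⟨q, hq⟩ := hs (ρ (u 0 w 0))
  have k' : y * y ∈ π.ker := by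
    rw [MonoidHom.mem_ker, map_mul, hy, ← map_mul, u_sq hF, mul_zero, u_zero, map_one]
  have cz := Subgroup.mem_center_iff.1 (hc k')
  have key : ∀ (r : X) (c : F), c ≠ 0 → π r = ρ (u 0 c 0) → y * r = r * y * (y * y) := fun r c h0 hr => by
    have e1 := sq_eq hF hs hc h2 hr hy fun e => h0 e.2
    have e2 := sq_eq hF hs hc h2 (x := y * r) (a := 1) (b := c)
      (by rw [map_mul, hy, hr, ← map_mul, u_mul]; simp) hy (by simp)
    have e3 : r * (y * r) = y := mul_left_cancel (a := y) (by rw [← e2]; group)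
    calc y * r = r * (r * r * r) * (y * r) := by
          rw [show r * (r * r * r) = r * r * (r * r) by group, e1, h2 _ k', one_mul]
      _ = r * (r * r) * (r * (y * r)) := by group
      _ = _ := by rw [e3, e1, mul_assoc, ← cz, mul_assoc]
  have e := key (p * q) (1 + w) w1 (by rw [map_mul, hp, hq, ← map_mul, u_mul]; simp)
  rw [← mul_assoc, key p 1 one_ne_zero hp, mul_assoc, ← cz q, ← mul_assoc, mul_assoc p, key q w w0 hq,
    mul_assoc, mul_assoc, h2 _ k', mul_one, ← mul_assoc, left_eq_mul] at e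
  rw [sq_eq hF hs hc h2 hx.symm hy h, e]

theorem elem : IsElementaryAbelian 2 (((E F).map ρ).comap π) :=
  ⟨⟨⟨fun x y => Subtype.ext (by
    have := sq_one hF hs hc h2 (mul_mem x.2 y.2)
    rw [Subgroup.coe_mul, Subgroup.coe_mul, eq_inv_of_mul_eq_one_left this, _root_.mul_inv_rev,
      inv_eq_of_mul_eq_one_right (sq_one hF hs hc h2 x.2),
      inv_eq_of_mul_eq_one_right (sq_one hF hs hc h2 y.2)])⟩⟩,
    fun x hx => by rw [pow_two, sq_one hF hs hc h2 hx]⟩

theorem compl [Finite X] (h : Pr ρ) : ∃ C : Subgroup X,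
    C ≤ Subgroup.normalizer (((E F).map ρ).comap π : Set X) ∧ C ⊓ ((E F).map ρ).comap π = ⊥ ∧
    ((E F).map ρ).comap π ⊔ C = Subgroup.normalizer (((E F).map ρ).comap π : Set X) ∧
    Nonempty (C ≃* SL(2, F)) := by
  let D := (ρ.comp ι).range.comap π
  let e := MonoidHom.ofInjective h.ι_inj
  let θ : D →* SL(2, F) := e.symm.toMonoidHom.comp ((π.comp D.subtype).codRestrict _ fun x => x.2)
  have hθ : ∀ x : D, ρ (ι (θ x)) = π x := fun x => congrArg Subtype.val (e.apply_symm_apply _)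
  have θs : Function.Surjective θ := fun M => by
    obtain ⟨x, hx⟩ := hs (ρ (ι M))
    exact ⟨⟨x, M, hx.symm⟩, h.ι_inj ((hθ _).trans hx)⟩
  have θk : ∀ x ∈ θ.ker, (x : X) ∈ π.ker := fun x hx => by
    rw [MonoidHom.mem_ker, ← hθ, hx, map_one, map_one]
  let P : Subgroup SL(2, F) := ((E F).map τ.toMonoidHom).comap ι
  have hP : P.index = 15 := by
    have h1 : Nat.card P = 4 := by
      rw [← hF, ← Nat.card_eq_fintype_card]
      refine (Nat.card_eq_of_bijective (fun c : F => (⟨⟨!![1, c; 0, 1], by simp⟩, _, ⟨-c, 0, rfl⟩, by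
        rw [MulEquiv.coe_toMonoidHom, τ_u]; refine Subtype.ext (Eq.trans ?_ (coe_ι _).symm)
        ext i j; fin_cases i <;> fin_cases j <;> simp [u]⟩ : P)) ⟨fun c d e => ?_, ?_⟩).symm
      · exact congrArg (fun g : P => g.1 0 1) e
      · rintro ⟨M, _, ⟨a, b, rfl⟩, e⟩
        rw [MulEquiv.coe_toMonoidHom, τ_u] at e
        have H := fun i j => congrArg (fun g : SL(3, F) => g i j) e
        refine ⟨-a, ?_⟩
        ext i j
        fin_cases i <;> fin_cases j
        exacts [H 1 1, H 1 2, H 2 1, H 2 2]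
    have := P.card_mul_index
    rw [h1, Class.card_SL2, hF] at this
    omega
  have h3 := inf_commutator_le_of_coprime (A := θ.ker) (X := P.comap θ)
    (fun x hx => Subgroup.mem_center_iff.2 fun y =>
      Subtype.ext (Subgroup.mem_center_iff.1 (hc (θk x hx)) y)) (by
      have : IsPGroup 2 θ.ker := fun x => ⟨1, Subtype.ext (Subtype.ext (by
        simpa [pow_two] using h2 _ (θk x x.2)))⟩
      obtain ⟨k, hk⟩ := this.exists_card_eq
      rw [Subgroup.index_comap_of_surjective _ θs, hP, hk]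
      exact Nat.Coprime.pow_right _ (by norm_num))
  have h4 : ⁅P.comap θ, P.comap θ⁆ = ⊥ := by
    refine eq_bot_iff.2 (Subgroup.commutator_le.2 fun x hx y hy => ?_)
    have k : ∀ x ∈ P.comap θ, (x : X) ∈ ((E F).map (ρ.comp τ.toMonoidHom)).comap π := by
      rintro x ⟨g, hg, e⟩
      exact ⟨g, hg, by rw [MonoidHom.comp_apply, e, hθ]⟩
    have := congrArg Subtype.val ((elem hF hs hc h2).1.1.1 ⟨_, k x hx⟩ ⟨_, k y hy⟩)
    exact commutatorElement_eq_one_iff_mul_comm.2 (Subtype.ext this)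
  rw [h4, inf_bot_eq, le_bot_iff] at h3
  have h5 : Function.Bijective (θ.comp (commutator D).subtype) := by
    refine ⟨(injective_iff_map_eq_one _).2 fun x hx => Subtype.ext ?_, fun M => ?_⟩
    · exact Subgroup.mem_bot.1 (h3.le ⟨hx, x.2⟩)
    · obtain ⟨x, hx, e⟩ : M ∈ (commutator D).map θ := by
        rw [commutator_def, Subgroup.map_commutator, ← MonoidHom.range_eq_map,
          MonoidHom.range_eq_top.2 θs, ← commutator_def, Class.Dickson.SL2_commutator_eq_top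
          (by rw [Nat.card_eq_fintype_card, hF])]
        trivial
      exact ⟨⟨x, hx⟩, e⟩
  have h6 : ((commutator D).map D.subtype).map π = (ρ.comp ι).range := by
    refine le_antisymm ?_ ?_
    · rintro _ ⟨_, ⟨x, -, rfl⟩, rfl⟩; exact x.2
    · rintro _ ⟨M, rfl⟩
      obtain ⟨x, rfl⟩ := h5.2 M
      exact ⟨_, ⟨x.1, x.2, rfl⟩, (hθ _).symm⟩
  have h7 : ((E F).map ρ).comap π ⊔ (commutator D).map D.subtype =
      Subgroup.normalizer (((E F).map ρ).comap π : Set X) := by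
    rw [← Subgroup.comap_normalizer_eq_of_surjective _ hs, h.norm hF, ← h6]
    conv_rhs => rw [← Subgroup.map_comap_eq_self_of_surjective hs ((E F).map ρ), ← Subgroup.map_sup,
      Subgroup.comap_map_eq_self ((Subgroup.ker_le_comap _ _).trans le_sup_left)]
  refine ⟨_, h7 ▸ le_sup_right, eq_bot_iff.2 ?_, h7, ⟨(Subgroup.equivMapOfInjective _ _
    D.subtype_injective).symm.trans (MulEquiv.ofBijective _ h5)⟩⟩
  rintro _ ⟨⟨x, hx, rfl⟩, hx'⟩
  have : π x = 1 := Subgroup.mem_bot.1 (h.disj.le ⟨x.2, hx'⟩)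
  rw [Subgroup.mem_bot.1 (h3.le ⟨h.ι_inj ((hθ x).trans (this.trans (map_one _).symm)), hx⟩)]
  exact one_mem _

theorem inf_eq (h : Pr ρ) :
    ((E F).map ρ).comap π ⊓ ((E F).map (ρ.comp τ.toMonoidHom)).comap π = (Subgroup.center
      ↥(((E F).map ρ).comap π ⊔ ((E F).map (ρ.comp τ.toMonoidHom)).comap π)).map
      (Subgroup.subtype _) := by
  have e1 := (elem (ρ := ρ) hF hs hc h2).1
  have e2 := (elem (ρ := ρ.comp τ.toMonoidHom) hF hs hc h2).1
  refine le_antisymm (fun x hx => ?_) ?_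
  · exact ⟨⟨x, Subgroup.mem_sup_left hx.1⟩, Subgroup.mem_center_iff.2 fun y => Subtype.ext <|
      Subgroup.mem_centralizer_singleton_iff.1 (sup_le (c := Subgroup.centralizer ({x} : Set X))
      (fun y hy => Subgroup.mem_centralizer_singleton_iff.2
        (congrArg Subtype.val (e1.1.1 ⟨y, hy⟩ ⟨x, hx.1⟩)))
      (fun y hy => Subgroup.mem_centralizer_singleton_iff.2
        (congrArg Subtype.val (e2.1.1 ⟨y, hy⟩ ⟨x, hx.2⟩))) y.2), rfl⟩
  rintro _ ⟨x, hx, rfl⟩
  obtain ⟨_, ⟨a, b, c, rfl⟩, e⟩ : x.1 ∈ ((U F).map ρ).comap π := by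
    refine sup_le (Subgroup.comap_mono ?_) (Subgroup.comap_mono ?_) x.2 <;>
      rintro _ ⟨_, ⟨a, b, rfl⟩, rfl⟩
    exacts [⟨_, ⟨_, _, _, rfl⟩, rfl⟩, ⟨_, ⟨_, _, _, τ_u ..⟩, rfl⟩]
  obtain ⟨p, hp⟩ := hs (ρ (u 1 0 0))
  obtain ⟨q, hq⟩ := hs (ρ (τ (u 1 0 0)))
  have k1 := congrArg (fun y => π y.1) (Subgroup.mem_center_iff.1 hx
    ⟨p, Subgroup.mem_sup_left ⟨_, ⟨_, _, rfl⟩, hp.symm⟩⟩)
  have k2 := congrArg (fun y => π y.1) (Subgroup.mem_center_iff.1 hx
    ⟨q, Subgroup.mem_sup_right ⟨_, ⟨_, _, rfl⟩, hq.symm⟩⟩)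
  simp only [Subgroup.coe_mul, map_mul, hp, hq, ← e, τ_u] at k1 k2
  rw [← map_mul, ← map_mul, u_mul, u_mul] at k1 k2
  have hc0 : c = 0 := by linear_combination (h.u_inj k1).2.1
  have ha0 : a = 0 := by linear_combination (h.u_inj k2).2.1
  subst hc0 ha0
  exact ⟨⟨_, ⟨_, _, rfl⟩, e⟩, ⟨_, ⟨0, -b, rfl⟩, Eq.trans (by simp [τ_u]) e⟩⟩

omit hc h2 in
theorem eq_or {H : Subgroup X} (hk : π.ker ≤ H) (hU : H.map π ≤ (U F).map ρ) (h : Pr ρ)
    (hH : IsElementaryAbelian 2 (H.map π)) (hn : Nat.card (H.map π) = 16) :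
    H = ((E F).map ρ).comap π ∨ H = ((E F).map (ρ.comp τ.toMonoidHom)).comap π := by
  have key : ∀ σ : SL(3, F) →* L, H.map π ≤ (E F).map σ → H = ((E F).map σ).comap π := fun σ hσ => by
    let f : F × F → (E F).map σ := fun p => ⟨σ (u p.1 p.2 0), _, ⟨_, _, rfl⟩, rfl⟩
    have hf : Function.Surjective f := by rintro ⟨_, _, ⟨a, b, rfl⟩, rfl⟩; exact ⟨(a, b), rfl⟩
    have := Finite.of_surjective f hf
    rw [← Subgroup.eq_of_le_of_card_ge hσ ((Nat.card_le_card_of_surjective f hf).trans (by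
      rw [hn]; simp [hF])), Subgroup.comap_map_eq_self hk]
  have : (H.map π : Set L) ⊆ (E F).map ρ ∪ (E F).map (ρ.comp τ.toMonoidHom) := fun x hx => by
    obtain ⟨_, ⟨a, b, c, rfl⟩, rfl⟩ := hU hx
    have := hH.2 _ hx
    rw [pow_two, ← map_mul, u_sq hF, ← map_one ρ, ← u_zero] at this
    rcases mul_eq_zero.1 (h.u_inj this).2.1 with rfl | rfl
    · exact .inr ⟨_, ⟨-c, -b, rfl⟩, by simp [τ_u]⟩
    · exact .inl ⟨_, ⟨_, _, rfl⟩, rfl⟩
  exact (SubgroupClass.subset_union.1 this).imp (key _) (key _)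

end Lift

theorem card_U [Fintype F] : Nat.card (U F) = Fintype.card F ^ 3 := by
  rw [← Nat.card_eq_of_bijective (fun p : F × F × F => (⟨u p.1 p.2.1 p.2.2, _, _, _, rfl⟩ : U F))
    ⟨fun p q e => Prod.ext (congrArg (fun g : U F => g.1 0 1) e) (Prod.ext
      (congrArg (fun g : U F => g.1 0 2) e) (congrArg (fun g : U F => g.1 1 2) e)),
    by rintro ⟨_, a, b, c, rfl⟩; exact ⟨(a, b, c), rfl⟩⟩]
  simp [pow_succ, mul_assoc]

end Cfsg.Agent.Mult.L34
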